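import Cfsg.Agent.H367.PO.Num
import Cfsg.Agent.H367.PO.Seven
import Cfsg.Agent.H130.War.RankLe
import Cfsg.Agent.H126.PwO.FiveThree

/-!
# S2465, orthogonal groups of odd dimension (helper367)

* `own_odd` : `N = r ≥ 5`;
* `prO_odd_of` : `N = 6`, `q = 3 ^ k`, from `Ω_9(3)`.
-/

set_option autoImplicit false
set_option linter.unusedSectionVars false
set_option linter.unusedVariables false

namespace Cfsg.Agent.H367.PO

open QuadraticMap Matrix Module Polynomial Cfsg.Agent.LieClassical.OrthCore Cfsg.Agent.LieClassical.OrthTrans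
  Cfsg.Agent.LieClassical.OrthFinite Cfsg.Agent.H140.OreO Cfsg.Agent.H126.PwO

universe u v

variable {F : Type u} [Field F]

/-- **polynomials** -/
theorem exists_gp_six [Finite F] {k d : ℕ} (hk : 1 ≤ k) (hF : Nat.card F = 3 ^ k) (hd : 3 ≤ d)
    (h34 : ¬ (k = 1 ∧ d = 4)) : ∃ f : F[X], H295.War.GP 6 1 d f := by
  obtain ⟨s, h6, hs, hmin, hadd, hdiv⟩ := exists_s hk hF hd h34
  obtain ⟨f, hf⟩ := exists_pol F (by omega) hs hmin
  have hodd : Odd s := by
    rw [← Nat.coprime_two_right]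
    exact Nat.Coprime.coprime_dvd_right (by norm_num) h6
  obtain ⟨c, hc⟩ := hodd
  have h1 : ((-1 : F)) ^ d * (-1) ^ d = 1 := by rw [← mul_pow, neg_one_mul, neg_neg, one_pow]
  refine ⟨f, hf.monic, hf.irr, hf.deg, ?_, hf.cop hadd, X ^ (c + 1), s, h6, ?_, ?_⟩
  · have h2 := (hf.coef 1).2 (by rw [mul_one]; exact hdiv)
    rw [pow_one] at h2
    linear_combination (-1 : F) ^ d * h2 - f.coeff 0 * h1
  · have h2 : (X ^ (c + 1)) ^ (2 * 1) - X = X * (X ^ s - 1 : F[X]) := by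
      rw [hc]; ring
    rw [h2]
    exact dvd_mul_of_dvd_right ((hf.dvd s).2 dvd_rfl) _
  · rw [← pow_mul]
    exact (hf.dvd _).2 (dvd_mul_left _ _)

/-- rank one -/
theorem rk_one {m : ℕ} (hm : 2 ≤ m) : H295.War.RK F m 1 := by
  intro A c hdet hc hr hA p g hp hpd hp0 hg hgd hg0 hne
  refine H130.War.exists_mul_rank_one hm A hc ?_ hp hpd hg hgd (by
    rw [hg0]; exact pow_ne_zero _ (neg_ne_zero.2 one_ne_zero)) (by rw [hdet, one_mul, hp0, hg0]) hne
  have h0 : (A - c • (1 : Matrix (Fin m) (Fin m) F)).rank ≠ 0 := by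
    intro h
    apply hA
    rw [Matrix.rank, Submodule.finrank_eq_zero, LinearMap.range_eq_bot] at h
    have h1 : A - c • (1 : Matrix (Fin m) (Fin m) F) = 0 := by
      ext i j
      have := congrFun (LinearMap.congr_fun h (Pi.single j 1)) i
      rwa [Matrix.mulVecLin_apply, Matrix.mulVec_single_one] at this
    exact sub_eq_zero.1 h1
  omega

variable {V : Type v} [AddCommGroup V] [Module F V] {Q : QuadraticForm F V}

theorem prO_of_orders {N : ℕ} {g a b : V ≃ₗ[F] V} (ha : a ∈ Om Q) (hb : b ∈ Om Q) (h : g = a * b)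
    (h1 : (orderOf a).Coprime N) (h2 : (orderOf b).Coprime N) : PrO N Q g :=
  ⟨a, ha, b, hb, orderOf a, orderOf b, h, h1, h2, pow_orderOf_eq_one a, pow_orderOf_eq_one b⟩

/-- **the engine** -/
theorem prO_engine [Finite F] [FiniteDimensional F V] {k m : ℕ} (hk : 1 ≤ k) (hF : Nat.card F = 3 ^ k) (hm : 4 ≤ m)
    (h3 : ¬ (k = 1 ∧ m ≤ 5)) (hQ : Nondeg Q) (hd : finrank F V = 2 * m + 1) {g : V ≃ₗ[F] V} (hg : g ∈ O Q)
    (hB : BaseCorner m Q g) : PrO 6 Q g := by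
  obtain ⟨p, hp⟩ := exists_gp_six (F := F) (d := m) hk hF (by omega) (by omega)
  obtain ⟨f, hf⟩ := exists_gp_six (F := F) (d := m - 1) hk hF (by omega) (by omega)
  have hRK : H295.War.RK F m (finrank F V - 2 * m) := by
    rw [hd, Nat.add_sub_cancel_left]
    exact rk_one (by omega)
  obtain ⟨x, hx, y, hy, h, h1, h2⟩ := H295.War.row hQ (by omega) (by omega) hRK hg hB le_rfl hp hf
  rw [pow_one, pow_one] at h
  exact prO_of_orders hx hy h h1 h2

/-- `P_5(3)` -/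
theorem prO_five_three [Finite F] [FiniteDimensional F V] (hF : Nat.card F = 3) (hQ : Nondeg Q)
    (hd : 5 ≤ finrank F V) {g : V ≃ₗ[F] V} (hg : g ∈ O Q) (hB : BaseCorner 5 Q g) : PrO 6 Q g := by
  have h2 : (2 : F) ≠ 0 := two_ne_zero_of (by rw [hF]; decide)
  have hc : CharP F 3 := by
    have := Fintype.ofFinite F
    have h1 : ((Fintype.card F : ℕ) : F) = 0 := FiniteField.cast_card_eq_zero F
    rw [← Nat.card_eq_fintype_card] at h1
    rw [hF] at h1
    exact (CharP.charP_iff_prime_eq_zero Nat.prime_three).2 h1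
  have hC : CopP 5 (Five.pF F) (1 : V ≃ₗ[F] V) :=
    copP_odd h2 Five.pF_monic (Five.pF_irr hF) (by rw [Five.pF_deg]; norm_num) (by rw [Five.pF_deg]; decide)
  obtain ⟨w, w', hf, hS, hdet, hA⟩ := hB
  have hC' : CopP 5 (Five.pF F) (1 : perp Q w w' ≃ₗ[F] perp Q w w') :=
    copP_odd h2 Five.pF_monic (Five.pF_irr hF) (by rw [Five.pF_deg]; norm_num) (by rw [Five.pF_deg]; decide)
  have hpow : ∀ X : Matrix (Fin 5) (Fin 5) F, X.charpoly = Five.pF F → X ^ 11 = 1 := fun X hX =>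
    H962.PP.pow_eq_one_of_charpoly (by rw [hX]; exact Five.pF_dvd)
  have hdt : ∀ X : Matrix (Fin 5) (Fin 5) F, X.charpoly = Five.pF F → X.det = 1 := by
    intro X hX
    have h3 : (3 : F) = 0 := by
      have := CharP.cast_eq_zero F 3
      exact_mod_cast this
    have h1 : (-1 : F) ^ 5 * (Five.pF F).coeff 0 = 1 := by
      rw [Five.pF]
      simp [coeff_X_pow]
      linear_combination -h3
    exact det_of_charpoly hX h1
  by_cases h1 : corner Q g w w' = 1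
  · have h0 : (Five.pF F).coeff 0 ≠ 0 := coeff_zero_ne (Five.pF_irr hF) (by rw [Five.pF_deg]; norm_num)
    obtain ⟨X, hX⟩ := exists_matrix (Five.pF F) Five.pF_monic h0 Five.pF_deg
    have hX1 : X ^ 11 = 1 := Units.ext (by rw [Units.val_pow_eq_pow_val, hpow _ hX, Units.val_one])
    have hXi : (X⁻¹) ^ 11 = 1 := by rw [inv_pow, hX1, inv_one]
    have hdi : ((X⁻¹ : GL (Fin 5) F) : Matrix (Fin 5) (Fin 5) F).det = 1 := by
      have h3 : ((X * X⁻¹ : GL (Fin 5) F) : Matrix (Fin 5) (Fin 5) F).det = 1 := by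
        rw [mul_inv_cancel, Units.val_one, det_one]
      rwa [Units.val_mul, det_mul, hdt _ hX, one_mul] at h3
    refine prO_of_corner (Y := X⁻¹) (x := 1) (k := 1) (s := 11) (t := 11) hd hQ hf hg hS ?_ (O _).one_mem
      (hC' X hX) ?_ (hdt _ hX) hdi odd_one (one_pow 1) (by decide) (by decide) hX1 (one_pow 11) hXi (one_pow 11)
    · rw [mul_inv_cancel, Units.val_one, h1]
    · exact Cfsg.Agent.H126.PwO.Cop.inv (hC' X hX)
  · have hns : ∀ c : F, corner Q g w w' ≠ c • (1 : Matrix (Fin 5) (Fin 5) F) := (hA.resolve_left h1).1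
    obtain ⟨X, Y, hXY, hX, hY⟩ := Five.p5_3 hF _ hdet hns
    exact prO_mat hd hQ hf hg hS hXY (hdt X hX) (hdt Y hY) (by rw [hX]; exact hC') (by rw [hY]; exact hC')
      (s := 11) (t := 11) (by decide) (by decide) (hpow X hX) (hpow Y hY)

/-- **own characteristic, `r ≥ 5`** -/
theorem prO_odd_own [Finite F] [FiniteDimensional F V] {r n : ℕ} (hr : r ∣ Nat.card F) (hq : 4 ≤ Nat.card F)
    (hn : 3 ≤ n) (hQ : Nondeg Q) (hd : finrank F V = 2 * n + 1) {g : V ≃ₗ[F] V} (hg : g ∈ Om Q) : PrO r Q g := by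
  by_cases h1 : g = 1
  · rw [h1]
    exact prO_one r
  obtain ⟨m, hm3, hm1, hm2, w, w', hfr, hS, hdet, hA⟩ :=
    Cfsg.Agent.H434.Corn.exists_baseCorner hQ (by omega) hg (ns_of_ne_one hQ (by rw [hd]; exact ⟨n, rfl⟩) hg h1)
  obtain ⟨k, rfl⟩ : ∃ k, m = k + 2 := ⟨m - 2, by omega⟩
  exact prO_own (by omega) hQ hfr (Om_le hg) hS hdet (hA.imp id fun h => h.1) (by omega) hr hq

/-- **characteristic 3** -/
theorem prO_odd_of [Finite F] [FiniteDimensional F V] {k n : ℕ} (hk : 1 ≤ k) (hF : Nat.card F = 3 ^ k)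
    (hn : 3 ≤ n) (h34 : ¬ (k = 1 ∧ n = 4)) (hQ : Nondeg Q) (hd : finrank F V = 2 * n + 1) {g : V ≃ₗ[F] V}
    (hg : g ∈ Om Q) : PrO 6 Q g := by
  by_cases h1 : g = 1
  · rw [h1]
    exact prO_one 6
  obtain ⟨m, hm3, hm1, hm2, hB⟩ :=
    Cfsg.Agent.H434.Corn.exists_baseCorner hQ (by omega) hg (ns_of_ne_one hQ (by rw [hd]; exact ⟨n, rfl⟩) hg h1)
  obtain rfl : m = n := by omega
  by_cases hk3 : 3 ≤ k
  · obtain ⟨w, w', hfr, hS, hdet, hA⟩ := hB
    obtain ⟨j, rfl⟩ : ∃ j, m = j + 2 := ⟨m - 2, by omega⟩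
    refine prO_six (r := 3) (e := k) (by omega) hQ hfr (Om_le hg) hS hdet (hA.imp id fun h => h.1) (by omega)
      (by norm_num) hk3 hF ?_
    rintro ⟨h8, -⟩
    have h3 : 3 ∣ 8 := by rw [← h8, hF]; exact dvd_pow_self 3 (by omega)
    omega
  rcases Nat.lt_or_ge m 4 with h4 | h4
  · obtain rfl : m = 3 := by omega
    refine prO_seven ?_ hQ (by omega) hg
    have : k = 1 ∨ k = 2 := by omega
    rcases this with rfl | rfl
    · exact Or.inl hF
    · exact Or.inr hF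
  · by_cases h5 : k = 1 ∧ m ≤ 5
    · obtain ⟨rfl, h5⟩ := h5
      obtain rfl : m = 5 := by omega
      exact prO_five_three hF hQ (by omega) (Om_le hg) hB
    · exact prO_engine hk hF h4 h5 hQ hd (Om_le hg) hB

/-! ### the groups -/

theorem own_odd [Fintype F] {r n : ℕ} (hr : r.Prime) (h5 : 5 ≤ r) (hrF : r ∣ Fintype.card F) (hn : 3 ≤ n) :
    Cfsg.Agent.H78.Pw.All r (Cfsg.POmega F (Cfsg.quadFormOdd n F)) := by
  have hq : 5 ≤ Fintype.card F := h5.trans (Nat.le_of_dvd Fintype.card_pos hrF)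
  have ho : Odd (Fintype.card F) := by
    obtain ⟨p, hc⟩ := CharP.exists F
    obtain ⟨k, hp, hk⟩ := FiniteField.card F p
    rw [hk] at hrF ⊢
    have h1 := (Nat.prime_dvd_prime_iff_eq hr hp).1 (hr.dvd_of_dvd_pow hrF)
    exact Odd.pow (hp.odd_of_ne_two (by omega))
  refine all_odd ho n fun Q hQ hd g hg => ?_
  exact prO_odd_own (by rwa [Nat.card_eq_fintype_card]) (by rw [Nat.card_eq_fintype_card]; omega) hn hQ hd hg

/-- **the row `hown`** -/
theorem own_row (F : Type) [Field F] [Fintype F] (r : ℕ) [hr : Fact r.Prime] [CharP F r] (m : ℕ) (h5 : 5 ≤ r)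
    (hm : 3 ≤ m) : Cfsg.Agent.H78.Pw.All r (Cfsg.POmega F (Cfsg.quadFormOdd m F)) := by
  refine own_odd hr.out h5 ?_ hm
  obtain ⟨k, hp, hk⟩ := FiniteField.card F r
  rw [hk]
  exact dvd_pow_self r k.ne_zero

theorem six_odd_of [Fintype F] [CharP F 3] {n : ℕ} (hn : 3 ≤ n) (h34 : ¬ (Fintype.card F = 3 ∧ n = 4)) :
    Cfsg.Agent.H78.Pw.All 6 (Cfsg.POmega F (Cfsg.quadFormOdd n F)) := by
  obtain ⟨k, hp, hk⟩ := FiniteField.card F 3
  refine all_odd (by rw [hk]; exact Odd.pow (by decide)) n fun Q hQ hd g hg => ?_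
  refine prO_odd_of (k := k) k.pos (by rw [Nat.card_eq_fintype_card, hk]) hn ?_ hQ hd hg
  rintro ⟨h1, h2⟩
  exact h34 ⟨by rw [hk, h1, pow_one], h2⟩

end Cfsg.Agent.H367.PO
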