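import Cfsg.Agent.H367.PO.Fix
import Cfsg.Agent.H649.PwO.Moved

/-!
# S2465, `Ω_9(3)`: elements fixing a singular vector (helper367)

* `tr` : the translations, `coset` : products of conjugates under the translations;
* `exists_ab` : `h ∈ Ω_7(3)`, `h ≠ 1`, is `a * b`, orders prime to 6, no common fixed vector;
* `prO_nine` : `Ω_9(3)`.
-/

set_option autoImplicit false
set_option linter.unusedSectionVars false
set_option linter.unusedVariables false

namespace Cfsg.Agent.H367.PO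

open QuadraticMap Matrix Module Cfsg.Agent.LieClassical.OrthCore Cfsg.Agent.LieClassical.OrthTrans
  Cfsg.Agent.LieClassical.OrthFinite Cfsg.Agent.H140.OreO Cfsg.Agent.H126.PwO Cfsg.Agent.H141.SpinFacts
  Cfsg.Agent.H160.QSpin

universe u v

variable {F : Type u} [Field F] {W : Type v} [AddCommGroup W] [Module F W] {Q : QuadraticForm F W}

/-- `(1, 0, 0)` -/
def eL (F : Type u) (W : Type v) [Field F] [AddCommGroup W] [Module F W] : M F W 1 := (fun _ => 1, 0, 0)

/-- `(0, 0, 1)` -/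
def eR (F : Type u) (W : Type v) [Field F] [AddCommGroup W] [Module F W] : M F W 1 := (0, 0, fun _ => 1)

theorem Q_eL : MQ 1 Q (eL F W) = 0 := by
  rw [MQ_apply']; simp [eL]

theorem polar_eL (v : M F W 1) : polar (MQ 1 Q) (eL F W) v = v.2.2 0 := by
  rw [polar_MQ]; simp [eL, dotProduct]

theorem polar_eL' (x : W) : polar (MQ 1 Q) (eL F W) (0, x, 0) = 0 := by
  rw [polar_eL]; rfl

theorem polar_mid (x : W) (v : M F W 1) : polar (MQ 1 Q) (0, x, 0) v = polar Q x v.2.1 := by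
  rw [polar_MQ]; simp

/-- translations -/
def tr (Q : QuadraticForm F W) (x : W) : M F W 1 ≃ₗ[F] M F W 1 := siegel (MQ 1 Q) (eL F W) (0, x, 0) Q_eL (polar_eL' x)

theorem tr_apply (x : W) (v : M F W 1) :
    tr Q x v = v + v.2.2 0 • ((0, x, 0) : M F W 1) - polar Q x v.2.1 • eL F W - (Q x * v.2.2 0) • eL F W := by
  rw [tr, siegel_apply, polar_eL, polar_mid]
  congr 3
  rw [MQ_apply']; simp

theorem tr_mem (x : W) : tr Q x ∈ O (MQ 1 Q) := siegel_mem_O _ _

theorem tr_mul (x y : W) : tr Q x * tr Q y = tr Q (x + y) := by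
  have h := siegel_mul (Q := MQ 1 Q) (u := eL F W) (w := (0, x, 0)) (w' := (0, y, 0)) Q_eL (polar_eL' x) (polar_eL' y)
    (by rw [polar_add_right, polar_eL', polar_eL', add_zero])
  refine h.trans ?_
  apply LinearEquiv.ext
  intro v
  rw [tr, siegel_apply, siegel_apply]
  simp

theorem tr_zero : tr Q (0 : W) = 1 := by
  apply LinearEquiv.ext
  intro v
  rw [tr_apply]
  simp

theorem tr_inv (x : W) : (tr Q x)⁻¹ = tr Q (-x) := by
  rw [inv_eq_iff_mul_eq_one, tr_mul, add_neg_cancel, tr_zero]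

theorem lev_tr {a : W ≃ₗ[F] W} (ha : a ∈ O Q) (x : W) :
    lev (1 : GL (Fin 1) F) a * tr Q x = tr Q (a x) * lev 1 a := by
  rw [← mul_inv_eq_iff_eq_mul]
  have e1 : lev (1 : GL (Fin 1) F) a (eL F W) = eL F W := by
    rw [lev_apply]; simp [eL]
  have e2 : lev (1 : GL (Fin 1) F) a (0, x, 0) = (0, a x, 0) := by
    rw [lev_apply]; simp
  rw [tr, siegel_conj (lev_mem ha) Q_eL (polar_eL' x) (by rw [e1]; exact Q_eL) (by rw [e1, e2]; exact polar_eL' _)]
  apply LinearEquiv.ext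
  intro v
  rw [tr, siegel_apply, siegel_apply, e1, e2]

/-- every element of `U⁺` is a translation -/
theorem up_eq {u : M F W 1 ≃ₗ[F] M F W 1} (hu : u ∈ Up 1 Q) : u = tr Q (u (eR F W)).2.1 := by
  set x := (u (eR F W)).2.1 with hx
  have h1 : (u (eR F W)).2.2 = fun _ => 1 := hu.2.1 _
  have h2 : (u (eR F W)).1 0 = - Q x := by
    have h := mem_O.1 hu.1 (eR F W)
    rw [MQ_apply', MQ_apply', h1] at h
    simp only [dotProduct, Fin.sum_univ_one, mul_one, eR] at h
    rw [Pi.zero_apply, zero_add, QuadraticMap.map_zero] at h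
    exact eq_neg_of_add_eq_zero_left h
  apply LinearEquiv.ext
  intro v
  have hd : v = (v.1, 0, 0) + ((0, v.2.1, 0) + v.2.2 0 • eR F W) := by
    refine Prod.ext (by simp [eR]) (Prod.ext (by simp [eR]) ?_)
    ext i
    rw [Fin.fin_one_eq_zero i]
    simp [eR]
  have e1 : u (v.1, 0, 0) = (v.1, 0, 0) := hu.2.2.2 _ rfl rfl
  have e2 : u (0, v.2.1, 0) = (0, v.2.1, 0) - polar Q x v.2.1 • eL F W := by
    have f1 : (u (0, v.2.1, 0)).2.2 = 0 := hu.2.1 _
    have f2 : (u (0, v.2.1, 0)).2.1 = v.2.1 := hu.2.2.1 _ rfl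
    have f3 : (u (0, v.2.1, 0)).1 0 = - polar Q x v.2.1 := by
      have h := polar_map hu.1 (0, v.2.1, 0) (eR F W)
      rw [polar_MQ, polar_MQ, f1, f2, h1, ← hx, polar_comm Q v.2.1 x] at h
      simp only [dotProduct, Fin.sum_univ_one, mul_one, eR, Pi.zero_apply, mul_zero, add_zero,
        polar_zero_right] at h
      exact eq_neg_of_add_eq_zero_left h
    refine Prod.ext ?_ (Prod.ext ?_ ?_)
    · ext i
      rw [Fin.fin_one_eq_zero i, f3]
      simp [eL]
    · rw [f2]; simp [eL]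
    · rw [f1]; simp [eL]
  have e3 : u (eR F W) = (0, x, 0) + eR F W - Q x • eL F W := by
    refine Prod.ext ?_ (Prod.ext ?_ ?_)
    · ext i
      rw [Fin.fin_one_eq_zero i, h2]
      simp [eL, eR]
    · simp [eL, eR, hx]
    · rw [h1]; simp [eL, eR]
  rw [tr_apply]
  conv_lhs => rw [hd, map_add, map_add, map_smul, e1, e2, e3]
  conv_rhs => rw [hd]
  have k1 : ((v.1, 0, 0) + ((0, v.2.1, 0) + v.2.2 0 • eR F W) : M F W 1).2.2 0 = v.2.2 0 := by rw [← hd]
  have k2 : ((v.1, 0, 0) + ((0, v.2.1, 0) + v.2.2 0 • eR F W) : M F W 1).2.1 = v.2.1 := by rw [← hd]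
  rw [k1, k2]
  module

/-- **the coset step** -/
theorem coset [FiniteDimensional F W] (hQ : Nondeg Q) {a b : W ≃ₗ[F] W} (ha : a ∈ O Q) (hb : b ∈ O Q)
    (hab : ∀ x, a x = x → b x = x → x = 0) (z : W) :
    ∃ x y, lev (1 : GL (Fin 1) F) (a * b) * tr Q z =
      (tr Q x * lev 1 a * (tr Q x)⁻¹) * (tr Q y * lev 1 b * (tr Q y)⁻¹) := by
  let T : (W × W) →ₗ[F] W := (LinearMap.id - (a : W →ₗ[F] W)).coprod
    ((a : W →ₗ[F] W) ∘ₗ (LinearMap.id - (b : W →ₗ[F] W)))
  have hT : ∀ x y, T (x, y) = (x - a x) + a (y - b y) := fun x y => by simp [T]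
  have hsurj : ∀ t, ∃ x y, (x - a x) + a (y - b y) = t := by
    by_contra hcon
    push Not at hcon
    obtain ⟨t, ht⟩ := hcon
    have ht' : t ∉ LinearMap.range T := by
      rintro ⟨⟨x, y⟩, h⟩
      exact ht x y (by rw [← hT, h])
    obtain ⟨φ, hφ, hR⟩ := Submodule.exists_le_ker_of_notMem ht'
    have hinj : Function.Injective (polarBilin Q : W →ₗ[F] Dual F W) := by
      rw [← LinearMap.ker_eq_bot, LinearMap.ker_eq_bot']
      intro x hx
      exact hQ x fun y => LinearMap.congr_fun hx y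
    obtain ⟨c, hc⟩ := (LinearMap.injective_iff_surjective_of_finrank_eq_finrank
      (Subspace.dual_finrank_eq (K := F) (V := W)).symm).1 hinj φ
    have hc' : ∀ v, polar Q c v = φ v := fun v => LinearMap.congr_fun hc v
    have h1 : ∀ x y, polar Q c ((x - a x) + a (y - b y)) = 0 := fun x y => by
      rw [hc', ← hT]
      exact hR (LinearMap.mem_range_self T (x, y))
    have h2 : ∀ x, polar Q c (a x) = polar Q c x := by
      intro x
      have := h1 x 0
      rw [map_zero, sub_zero, map_zero, add_zero, polar_sub_right, sub_eq_zero] at this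
      exact this.symm
    have h3 : ∀ y, polar Q c (b y) = polar Q c y := by
      intro y
      have := h1 0 y
      rw [map_zero, sub_zero, zero_add, h2, polar_sub_right, sub_eq_zero] at this
      exact this.symm
    have key : ∀ g : W ≃ₗ[F] W, g ∈ O Q → (∀ x, polar Q c (g x) = polar Q c x) → g c = c := by
      intro g hg h
      have h4 : g c - c = 0 := by
        apply hQ
        intro y
        obtain ⟨y, rfl⟩ := g.surjective y
        rw [polar_sub_left, polar_map hg, h, sub_self]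
      exact sub_eq_zero.1 h4
    have h5 := hab c (key a ha h2) (key b hb h3)
    apply hφ
    rw [← hc', h5, polar_zero_left]
  obtain ⟨x, y, hxy⟩ := hsurj ((a * b) z)
  refine ⟨x, y, ?_⟩
  rw [lev_tr ((O Q).mul_mem ha hb), ← hxy]
  have e1 : ∀ (g : W ≃ₗ[F] W) (hg : g ∈ O Q) (x : W), tr Q x * lev 1 g * (tr Q x)⁻¹ = tr Q (x - g x) * lev 1 g := by
    intro g hg x
    rw [tr_inv, mul_assoc, lev_tr hg, ← mul_assoc, tr_mul, map_neg, sub_eq_add_neg]
  rw [e1 a ha, e1 b hb]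
  have e2 : tr Q (x - a x) * lev (1 : GL (Fin 1) F) a * (tr Q (y - b y) * lev 1 b) =
      tr Q (x - a x) * (lev (1 : GL (Fin 1) F) a * tr Q (y - b y)) * lev 1 b := by group
  rw [e2, lev_tr ha, ← mul_assoc, tr_mul, mul_assoc, ← lev_mul, mul_one]

theorem prO_coset [Finite F] [FiniteDimensional F W] (hQ : Nondeg Q) {N s t : ℕ} {a b : W ≃ₗ[F] W} (ha : a ∈ Om Q)
    (hb : b ∈ Om Q) (hs : s.Coprime N) (ht : t.Coprime N) (has : a ^ s = 1) (hbt : b ^ t = 1)
    (hab : ∀ x, a x = x → b x = x → x = 0) (z : W) :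
    PrO N (MQ 1 Q) (lev (1 : GL (Fin 1) F) (a * b) * tr Q z) := by
  obtain ⟨x, y, h⟩ := coset hQ (Om_le ha) (Om_le hb) hab z
  refine ⟨_, conj_mem_Om (tr_mem x) (levV_mem ha), _, conj_mem_Om (tr_mem y) (levV_mem hb), s, t, h, hs, ht, ?_, ?_⟩
  · rw [conj_pow, lev_pow, has, one_pow, lev_one, mul_one, mul_inv_cancel]
  · rw [conj_pow, lev_pow, hbt, one_pow, lev_one, mul_one, mul_inv_cancel]

/-! ### `Ω_7(3)` -/

/-- a fixed vector of `lev X 1` is in the middle -/
theorem fix_lev {n : ℕ} {X : GL (Fin n) F} (hX : Cop X (1 : W ≃ₗ[F] W)) (hW : ∃ φ : W →ₗ[F] F, φ ≠ 0) {x : M F W n}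
    (hx : lev X (1 : W ≃ₗ[F] W) x = x) : x = (0, x.2.1, 0) := by
  obtain ⟨φ, hφ⟩ := hW
  obtain ⟨y, hy⟩ : ∃ y, φ y ≠ 0 := by
    by_contra hcon
    push Not at hcon
    exact hφ (LinearMap.ext hcon)
  rw [lev_apply] at hx
  have h1 : (X : Matrix (Fin n) (Fin n) F) *ᵥ x.1 = x.1 := congrArg (fun z => z.1) hx
  have h2 : (ti X : Matrix (Fin n) (Fin n) F) *ᵥ x.2.2 = x.2.2 := congrArg (fun z => z.2.2) hx
  have h3 := hX.b' (φ.smulRight x.1) (fun v => by
    rw [LinearMap.smulRight_apply, LinearMap.smulRight_apply, mulVec_smul, h1]; rfl)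
  have h4 := hX.b (φ.smulRight x.2.2) (fun v => by
    rw [LinearMap.smulRight_apply, LinearMap.smulRight_apply, mulVec_smul, h2]; rfl)
  have h5 := LinearMap.congr_fun h3 y
  have h6 := LinearMap.congr_fun h4 y
  rw [LinearMap.smulRight_apply, LinearMap.zero_apply] at h5 h6
  exact Prod.ext ((smul_eq_zero.1 h5).resolve_left hy) (Prod.ext rfl ((smul_eq_zero.1 h6).resolve_left hy))

theorem exists_ab [Finite F] [FiniteDimensional F W] (hF : Nat.card F = 3) (hQ : Nondeg Q)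
    (hd : finrank F W = 7) {h : W ≃ₗ[F] W} (hh : h ∈ Om Q) (h1 : h ≠ 1) :
    ∃ a ∈ Om Q, ∃ b ∈ Om Q, ∃ s t : ℕ, h = a * b ∧ s.Coprime 6 ∧ t.Coprime 6 ∧ a ^ s = 1 ∧ b ^ t = 1 ∧
      ∀ x, a x = x → b x = x → x = 0 := by
  have h2 : (2 : F) ≠ 0 := two_ne_zero_of (by rw [hF]; decide)
  obtain ⟨w, w', hf, hS, hdet, hmv⟩ := Cfsg.Agent.H649.PwO.exists_moved h2 hQ hd hh h1
  obtain ⟨X, Y, s, hXY, hX, hY, hXi, hYi, hs, hXs, hYs⟩ := split_three (A := corner Q h w w') (Or.inl hF) hdet (by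
    by_cases hc : ∃ c : F, corner Q h w w' = c • (1 : Matrix (Fin 3) (Fin 3) F)
    · left
      obtain ⟨c, hc⟩ := hc
      have _ : Fintype F := Fintype.ofFinite F
      have h1 := FiniteField.pow_card c
      rw [← Nat.card_eq_fintype_card, hF] at h1
      rw [hc, det_smul, det_one, mul_one, Fintype.card_fin, h1] at hdet
      rw [hc, hdet, one_smul]
    · push Not at hc
      exact Or.inr hc)
  obtain ⟨X', rfl⟩ : ∃ X' : GL (Fin 3) F, (X' : Matrix _ _ F) = X :=
    ⟨Matrix.GeneralLinearGroup.mkOfDetNeZero X (by rw [hX]; exact one_ne_zero), rfl⟩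
  obtain ⟨Y', rfl⟩ : ∃ Y' : GL (Fin 3) F, (Y' : Matrix _ _ F) = Y :=
    ⟨Matrix.GeneralLinearGroup.mkOfDetNeZero Y (by rw [hY]; exact one_ne_zero), rfl⟩
  have hdg : ∀ X : Matrix (Fin 3) (Fin 3) F, X.charpoly.natDegree = 3 := fun X => by
    rw [charpoly_natDegree_eq_dim, Fintype.card_fin]
  have hCX : Cop X' (1 : perp Q w w' ≃ₗ[F] perp Q w w') :=
    copP_odd h2 (charpoly_monic _) hXi (by rw [hdg]; norm_num) (by rw [hdg]; decide) X' rfl
  have hCY : Cop Y' (1 : perp Q w w' ≃ₗ[F] perp Q w w') :=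
    copP_odd h2 (charpoly_monic _) hYi (by rw [hdg]; norm_num) (by rw [hdg]; decide) Y' rfl
  have he : ∀ v, MQ 3 (res Q w w') (hf.toModel v) = Q v := hf.MQ_toModel
  have hQ1 := hf.nondeg_res hQ
  have hG : Good (MQ 3 (res Q w w')) := by
    apply good_of_finite (nondeg_MQ hQ1)
    rw [← hf.toModel.finrank_eq]; omega
  obtain ⟨u₁, hu₁, g₁, hg₁, u₂, hu₂, e⟩ := exists_decomp hf (Om_le hh) (X' * Y') (by
    rw [Units.val_mul, hXY])
  obtain rfl := (schurOne_iff hf hu₁ hu₂ e).1 hS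
  have e' : autE hf.toModel h = u₁ * lev (X' * Y') 1 * u₂ := e
  obtain ⟨v₁, hv₁, hv₁', e₁⟩ := hCX.exists_um (O (res Q w w')).one_mem hu₁
  obtain ⟨v₂, hv₂, hv₂', e₂⟩ := hCY.exists_up (O (res Q w w')).one_mem
    (lev_conj_Up (A := Y') (O (res Q w w')).one_mem hu₂)
  have e3 : autE hf.toModel h = (v₁ * lev X' 1 * v₁⁻¹) * (v₂ * lev Y' 1 * v₂⁻¹) := by
    rw [e', ← e₁, ← e₂]
    have : lev (X' * Y') (1 : perp Q w w' ≃ₗ[F] perp Q w w') = lev X' 1 * lev Y' 1 := by rw [← lev_mul, mul_one]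
    rw [this]
    group
  obtain ⟨a, ha⟩ := (autE hf.toModel).surjective (v₁ * lev X' 1 * v₁⁻¹)
  obtain ⟨b, hb⟩ := (autE hf.toModel).surjective (v₂ * lev Y' 1 * v₂⁻¹)
  have haO : a ∈ Om Q := (autE_mem_Om he).1 (by
    rw [ha]; exact (Om _).mul_mem ((Om _).mul_mem hv₁' (lev_det_one_mem hG hX)) ((Om _).inv_mem hv₁'))
  have hbO : b ∈ Om Q := (autE_mem_Om he).1 (by
    rw [hb]; exact (Om _).mul_mem ((Om _).mul_mem hv₂' (lev_det_one_mem hG hY)) ((Om _).inv_mem hv₂'))
  have hab : h = a * b := by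
    apply (autE hf.toModel).injective
    rw [map_mul, ha, hb, e3]
  have hpow : ∀ {Z : GL (Fin 3) F}, (Z : Matrix (Fin 3) (Fin 3) F) ^ s = 1 → Z ^ s = 1 := fun hZ =>
    Units.ext (by rw [Units.val_pow_eq_pow_val, Units.val_one, hZ])
  refine ⟨a, haO, b, hbO, s, s, hab, hs, hs, ?_, ?_, ?_⟩
  · apply (autE hf.toModel).injective
    rw [map_pow, ha, map_one, conj_pow, lev_pow, hpow hXs, one_pow, lev_one, mul_one, mul_inv_cancel]
  · apply (autE hf.toModel).injective
    rw [map_pow, hb, map_one, conj_pow, lev_pow, hpow hYs, one_pow, lev_one, mul_one, mul_inv_cancel]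
  · intro x hax hbx
    have hfin := hf.finrank_perp
    have hφ : ∃ φ : perp Q w w' →ₗ[F] F, φ ≠ 0 := by
      have hpos : 0 < finrank F (perp Q w w') := by omega
      have : Nontrivial (perp Q w w') := Module.finrank_pos_iff.1 hpos
      obtain ⟨y, hy⟩ := exists_ne (0 : perp Q w w')
      obtain ⟨z, hz⟩ := hQ1.exists_polar_ne hy
      exact ⟨polarBilin (res Q w w') y, fun h0 => hz (LinearMap.congr_fun h0 z)⟩
    have k1 : (v₁ * lev X' (1 : perp Q w w' ≃ₗ[F] perp Q w w') * v₁⁻¹) (hf.toModel x) = hf.toModel x := by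
      rw [← ha, autE_apply', hax]
    have k2 : (v₂ * lev Y' (1 : perp Q w w' ≃ₗ[F] perp Q w w') * v₂⁻¹) (hf.toModel x) = hf.toModel x := by
      rw [← hb, autE_apply', hbx]
    have k3 : lev X' 1 (v₁⁻¹ (hf.toModel x)) = v₁⁻¹ (hf.toModel x) := by
      conv_rhs => rw [← k1]
      show _ = v₁.symm (v₁ (lev X' 1 (v₁⁻¹ (hf.toModel x))))
      rw [LinearEquiv.symm_apply_apply]
    have k4 : lev Y' 1 (v₂⁻¹ (hf.toModel x)) = v₂⁻¹ (hf.toModel x) := by
      conv_rhs => rw [← k2]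
      show _ = v₂.symm (v₂ (lev Y' 1 (v₂⁻¹ (hf.toModel x))))
      rw [LinearEquiv.symm_apply_apply]
    have k5 := fix_lev hCX hφ k3
    have k6 := fix_lev hCY hφ k4
    have k7 : (hf.toModel x).1 = 0 := by
      have := (Um 3 (res Q w w')).inv_mem hv₁
      rw [← this.2.1 (hf.toModel x), k5]
    have k8 : (hf.toModel x).2.2 = 0 := by
      have := (Up 3 (res Q w w')).inv_mem hv₂
      rw [← this.2.1 (hf.toModel x), k6]
    have k9 : x = ((hf.toModel x).2.1 : W) := by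
      conv_lhs => rw [← hf.toModel.symm_apply_apply x, hf.toModel_symm_apply, k7, k8]
      simp
    rw [k9]
    refine hmv _ (hf.toModel x).2.1.2 ?_
    rw [← k9, hab]
    show a (b x) = x
    rw [hbx, hax]

/-! ### `Ω_9(3)` -/

/-- a nonsingular vector orthogonal to `z` -/
theorem exists_nonsing_perp (hQ : Nondeg Q) (hd : 3 ≤ finrank F W) (z : W) :
    ∃ v, polar Q z v = 0 ∧ Q v ≠ 0 := by
  obtain ⟨t, ht⟩ : ∃ t, z ≠ 0 → polar Q z t = 1 := by
    by_cases hz : z = 0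
    · exact ⟨0, fun h => absurd hz h⟩
    · obtain ⟨t, ht⟩ := hQ.exists_polar_eq hz 1
      exact ⟨t, fun _ => ht⟩
  obtain ⟨k, hk0, hk⟩ := exists_perp_ne (Q := Q) ![z, t] (by omega)
  have hkz : polar Q z k = 0 := hk 0
  have hkt : polar Q t k = 0 := hk 1
  obtain ⟨y, hy, hy1⟩ := exists_sep (x := k) (z := z) hQ (by
    rintro c rfl
    by_cases hz : z = 0
    · exact hk0 (by rw [hz, smul_zero])
    · rw [polar_smul_right, polar_comm Q t z, ht hz, smul_eq_mul, mul_one] at hkt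
      exact hk0 (by rw [hkt, zero_smul]))
  rcases exists_nonsing hy1 with h | h | h
  · exact ⟨k, hkz, h⟩
  · exact ⟨y, hy, h⟩
  · exact ⟨k + y, by rw [polar_add_right, hkz, hy, add_zero], h⟩

variable {V : Type v} [AddCommGroup V] [Module F V] {Q' : QuadraticForm F V}

/-- an isometry of determinant one of an odd-dimensional space fixes a nonzero vector -/
theorem exists_fixed [FiniteDimensional F V] (h2 : (2 : F) ≠ 0) (hQ : Nondeg Q') (ho : Odd (finrank F V))
    {g : V ≃ₗ[F] V} (hg : g ∈ O Q') (hdet : LinearMap.det (g : V →ₗ[F] V) = 1) : ∃ x, x ≠ 0 ∧ g x = x := by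
  have hinj : Function.Injective (polarBilin Q' : V →ₗ[F] Dual F V) := by
    rw [← LinearMap.ker_eq_bot, LinearMap.ker_eq_bot']
    intro x hx
    exact hQ x fun y => LinearMap.congr_fun hx y
  let e : V ≃ₗ[F] Dual F V := LinearEquiv.ofInjectiveOfFinrankEq (polarBilin Q') hinj (Subspace.dual_finrank_eq).symm
  have he : ∀ x y, e x y = polar Q' x y := fun x y => rfl
  have hdual : finrank F (Dual F V) = finrank F V := Subspace.dual_finrank_eq
  have hc : ∀ f : V →ₗ[F] V, LinearMap.det (e.toLinearMap ∘ₗ f ∘ₗ e.symm.toLinearMap) = LinearMap.det f := fun f =>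
    LinearMap.det_conj f e
  have hdd : ∀ f : V →ₗ[F] V, LinearMap.det f.dualMap = LinearMap.det f := fun f => LinearMap.det_dualMap f
  have k4 : (g : V →ₗ[F] V).dualMap ∘ₗ (e.toLinearMap ∘ₗ ((g : V →ₗ[F] V) - 1) ∘ₗ e.symm.toLinearMap) =
      (-1 : F) • ((g : V →ₗ[F] V) - 1).dualMap := by
    refine LinearMap.ext fun y => ?_
    obtain ⟨x, rfl⟩ := e.surjective y
    refine LinearMap.ext fun z => ?_
    simp only [LinearMap.comp_apply, LinearEquiv.coe_coe, LinearMap.dualMap_apply, LinearEquiv.symm_apply_apply,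
      LinearMap.sub_apply, LinearMap.smul_apply, map_sub, Module.End.one_apply, he, polar_sub_right, polar_map hg, smul_eq_mul]
    ring
  have k5 : LinearMap.det ((g : V →ₗ[F] V) - 1) = - LinearMap.det ((g : V →ₗ[F] V) - 1) := by
    have h3 := congrArg LinearMap.det k4
    rw [LinearMap.det_comp, hc, hdd, LinearMap.det_smul, hdd, hdual, ho.neg_one_pow, hdet, one_mul] at h3
    linear_combination h3
  have k6 : LinearMap.det ((g : V →ₗ[F] V) - 1) = 0 := by
    have h3 : (2 : F) * LinearMap.det ((g : V →ₗ[F] V) - 1) = 0 := by linear_combination k5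
    exact (mul_eq_zero.1 h3).resolve_left h2
  have k7 := LinearMap.bot_lt_ker_of_det_eq_zero k6
  obtain ⟨x, hx, hx0⟩ := Submodule.exists_mem_ne_zero_of_ne_bot k7.ne'
  refine ⟨x, hx0, ?_⟩
  rw [LinearMap.mem_ker, LinearMap.sub_apply, sub_eq_zero] at hx
  exact hx

/-- **elements fixing a singular vector** -/
theorem prO_of_sing [Finite F] [FiniteDimensional F V] (hF : Nat.card F = 3) (hQ : Nondeg Q')
    (hd : finrank F V = 9) {g : V ≃ₗ[F] V} (hg : g ∈ Om Q') {x₀ : V} (hx : Q' x₀ = 0) (hx0 : x₀ ≠ 0)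
    (hgx : g x₀ = x₀) : PrO 6 Q' g := by
  have h2 : (2 : F) ≠ 0 := two_ne_zero_of (by rw [hF]; decide)
  obtain ⟨y₀, hxy⟩ := exists_hyp hQ hx hx0
  have hf : Frame Q' (fun _ : Fin 1 => x₀) (fun _ : Fin 1 => y₀) :=
    { sl := fun _ => hxy.left
      sr := fun _ => hxy.right
      ll := fun _ _ => hxy.polar_left
      rr := fun _ _ => hxy.polar_right
      lr := fun i j => by rw [hxy.pair, if_pos (Subsingleton.elim i j)] }
  have he : ∀ v, MQ 1 (res Q' (fun _ : Fin 1 => x₀) (fun _ : Fin 1 => y₀)) (hf.toModel v) = Q' v := hf.MQ_toModel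
  have hQ1 := hf.nondeg_res hQ
  have hfin := hf.finrank_perp
  have hfin' : finrank F (perp Q' (fun _ : Fin 1 => x₀) (fun _ : Fin 1 => y₀)) = 7 := by omega
  have hfix : ∀ a, autE hf.toModel g (a, 0, 0) = (a, 0, 0) := by
    intro a
    rw [autE_apply, ← LinearEquiv.eq_symm_apply, hf.toModel_symm_apply]
    simp [hgx]
  obtain ⟨h, hh, u, hu, e⟩ := fixW ((autE_mem_O he).2 (Om_le hg)) hfix
  have e' : hf.toModel.symm.trans (g.trans hf.toModel) = 1 * lev (1 : GL (Fin 1) F) h * u := by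
    rw [one_mul]; exact e
  have : Finite V := Module.finite_of_finite F
  obtain ⟨hdet, hsp⟩ := frame_odd h2 hQ hf hg (Um 1 _).one_mem hu hh e'
  have hG1 : Good (res Q' (fun _ : Fin 1 => x₀) (fun _ : Fin 1 => y₀)) := good_of_finite hQ1 (by omega)
  have hOm : h ∈ Om (res Q' (fun _ : Fin 1 => x₀) (fun _ : Fin 1 => y₀)) := by
    refine mem_Om_of_odd h2 hG1 hh hdet ?_
    rw [hsp, Units.val_one, det_one, chi_eq_one_iff]
    exact IsSquare.one
  obtain ⟨z, hz⟩ : ∃ z, u = tr _ z := ⟨_, up_eq hu⟩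
  by_cases h1 : h = 1
  · obtain ⟨v, hv, hQv⟩ := exists_nonsing_perp hQ1 (by omega) z
    refine prO_of_fix hF hQ hd hg (f := (v : V)) hQv ?_
    have e1 : autE hf.toModel g (0, v, 0) = (0, v, 0) := by
      rw [e, h1, lev_one, one_mul, hz, tr_apply]
      simp [hv]
    have e2 : hf.toModel.symm (0, v, 0) = (v : V) := by
      rw [hf.toModel_symm_apply]; simp
    rw [autE_apply, ← LinearEquiv.eq_symm_apply, e2] at e1
    exact e1
  · obtain ⟨a, ha, b, hb, s, t, hab, hs, ht, has, hbt, hc⟩ := exists_ab hF hQ1 hfin' hOm h1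
    refine PrO.of_autE he ?_
    rw [e, hz, hab]
    exact prO_coset hQ1 ha hb hs ht has hbt hc z

/-- **`Ω_9(3)`** -/
theorem prO_nine [Finite F] [FiniteDimensional F V] (hF : Nat.card F = 3) (hQ : Nondeg Q')
    (hd : finrank F V = 9) {g : V ≃ₗ[F] V} (hg : g ∈ Om Q') : PrO 6 Q' g := by
  have h2 : (2 : F) ≠ 0 := two_ne_zero_of (by rw [hF]; decide)
  obtain ⟨x, hx0, hx⟩ := exists_fixed h2 hQ (by rw [hd]; decide) (Om_le hg) (det_eq_one' hg)
  by_cases h : Q' x = 0
  · exact prO_of_sing hF hQ hd hg h hx0 hx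
  · exact prO_of_fix hF hQ hd hg h hx

end Cfsg.Agent.H367.PO
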