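import Cfsg.Agent.H126.PwO.Step
import Cfsg.Agent.H367.PO.Cert

/-!
# S2465, `Ω_9(3)`: the negative of a reflection (helper367)

* `prO_neg` : `-r_f ∈ Ω_9(3)` is a product of two elements of order prime to 6.
-/

set_option autoImplicit false
set_option linter.unusedSectionVars false
set_option linter.unusedVariables false

namespace Cfsg.Agent.H367.PO

open QuadraticMap Matrix Module Cfsg.Agent.LieClassical.OrthCore Cfsg.Agent.LieClassical.OrthTrans
  Cfsg.Agent.LieClassical.OrthFinite Cfsg.Agent.H140.OreO Cfsg.Agent.H126.PwO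

universe u v

variable {F : Type u} {V : Type v} [Field F] [AddCommGroup V] [Module F V] {Q : QuadraticForm F V}

/-- `GL_n` acts on `F^n`. -/
theorem gle_mul {n : ℕ} (A B : GL (Fin n) F) : gle (A * B) = gle A * gle B := by
  apply LinearEquiv.ext
  intro x
  show gle (A * B) x = gle A (gle B x)
  rw [gle_apply, gle_apply, gle_apply, mulVec_mulVec, Units.val_mul]

theorem gle_one {n : ℕ} : gle (1 : GL (Fin n) F) = 1 := by
  apply LinearEquiv.ext
  intro x
  show gle 1 x = x
  rw [gle_apply, Units.val_one, one_mulVec]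

theorem gle_pow {n : ℕ} (A : GL (Fin n) F) (k : ℕ) : gle (A ^ k) = gle A ^ k := by
  induction k with
  | zero => rw [pow_zero, pow_zero, gle_one]
  | succ k ih => rw [pow_succ, pow_succ, gle_mul, ih]

/-- the matrix step -/
theorem prO_cert [Finite F] (φ : ZMod 3 →+* F) {Q' : QuadraticForm F (Fin 9 → F)} (hQ : Nondeg Q')
    {G D : M9} (hc : Cert G D) (hG : ∀ y, Q' y = 2 * (y ⬝ᵥ (G.map φ) *ᵥ y))
    {d : (Fin 9 → F) ≃ₗ[F] (Fin 9 → F)} (hd : ∀ y, d y = (D.map φ) *ᵥ y) : PrO 6 Q' d := by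
  obtain ⟨A, B, hAB, hA, hB, hA1, hB1⟩ := hc.ex
  have key : ∀ A : M9, Aᵀ * G * A = G → A ^ 41 = 1 → ∃ a : GL (Fin 9) F, (a : Matrix (Fin 9) (Fin 9) F) = A.map φ ∧
      a ^ 41 = 1 ∧ gle a ∈ O Q' := by
    intro A hA hA1
    have e1 : (A.map φ) ^ 41 = 1 := by
      have := congrArg (RingHom.mapMatrix φ) hA1
      rw [map_pow, map_one] at this
      exact this
    let a : GL (Fin 9) F := ⟨A.map φ, (A.map φ) ^ 40, by rw [← pow_succ', e1], by rw [← pow_succ, e1]⟩
    have ha : (a : Matrix (Fin 9) (Fin 9) F) = A.map φ := rfl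
    refine ⟨a, ha, Units.ext ?_, ?_⟩
    · rw [Units.val_pow_eq_pow_val, ha, e1, Units.val_one]
    · rw [mem_O]
      intro y
      have e2 : (A.map φ)ᵀ * (G.map φ) * (A.map φ) = G.map φ := by
        have := congrArg (RingHom.mapMatrix φ) hA
        rw [map_mul, map_mul] at this
        exact this
      have e3 : (A.map φ *ᵥ y) ⬝ᵥ (G.map φ *ᵥ (A.map φ *ᵥ y)) = y ⬝ᵥ (G.map φ *ᵥ y) := by
        conv_rhs => rw [← e2]
        rw [← mulVec_mulVec, ← mulVec_mulVec, dotProduct_mulVec y (A.map φ)ᵀ, vecMul_transpose]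
      rw [hG, hG, gle_apply, ha, e3]
  obtain ⟨a, ha, ha1, haO⟩ := key A hA hA1
  obtain ⟨b, hb, hb1, hbO⟩ := key B hB hB1
  have hG' : Good Q' := good_of_finite hQ (by rw [finrank_fin_fun]; omega)
  have ha2 : gle a ^ 41 = 1 := by rw [← gle_pow, ha1, gle_one]
  have hb2 : gle b ^ 41 = 1 := by rw [← gle_pow, hb1, gle_one]
  refine ⟨gle a, mem_Om_of_pow hG' haO (by decide) ha2, gle b, mem_Om_of_pow hG' hbO (by decide) hb2, 41, 41, ?_,
    by decide, by decide, ha2, hb2⟩
  apply LinearEquiv.ext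
  intro y
  rw [hd, ← gle_mul, gle_apply, Units.val_mul, ha, hb, ← hAB]
  congr 1
  exact map_mul (RingHom.mapMatrix φ) A B

/-- coordinates -/
noncomputable def toNine {W : Type v} [AddCommGroup W] [Module F W] (ε : W ≃ₗ[F] F) :
    M F W 4 ≃ₗ[F] (Fin 9 → F) where
  toFun x := ![x.1 0, x.1 1, x.1 2, x.1 3, ε x.2.1, x.2.2 0, x.2.2 1, x.2.2 2, x.2.2 3]
  map_add' x y := by
    ext i
    fin_cases i <;> simp
  map_smul' c x := by
    ext i
    fin_cases i <;> simp
  invFun y := (![y 0, y 1, y 2, y 3], ε.symm (y 4), ![y 5, y 6, y 7, y 8])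
  left_inv x := by
    refine Prod.ext ?_ (Prod.ext ?_ ?_)
    · ext i
      fin_cases i <;> rfl
    · exact ε.symm_apply_apply _
    · ext i
      fin_cases i <;> rfl
  right_inv y := by
    ext i
    fin_cases i
    · rfl
    · rfl
    · rfl
    · rfl
    · exact ε.apply_symm_apply _
    · rfl
    · rfl
    · rfl
    · rfl

theorem toNine_symm {W : Type v} [AddCommGroup W] [Module F W] (ε : W ≃ₗ[F] F) (y : Fin 9 → F) :
    (toNine ε).symm y = (![y 0, y 1, y 2, y 3], ε.symm (y 4), ![y 5, y 6, y 7, y 8]) := rfl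

/-- the form in coordinates, `κ = ± 1` -/
theorem form_eq (h3 : (3 : F) = 0) (φ : ZMod 3 →+* F) (y : Fin 9 → F) :
    (y 0 * y 5 + y 1 * y 6 + y 2 * y 7 + y 3 * y 8 + y 4 ^ 2 = 2 * (y ⬝ᵥ (G1.map φ) *ᵥ y)) ∧
    (y 0 * y 5 + y 1 * y 6 + y 2 * y 7 + y 3 * y 8 - y 4 ^ 2 = 2 * (y ⬝ᵥ (G2.map φ) *ᵥ y)) := by
  have h2 : φ 2 = 2 := map_ofNat φ 2
  constructor
  · have e : G1.map φ *ᵥ y = ![y 5, y 6, y 7, y 8, 2 * y 4, y 0, y 1, y 2, y 3] := by
      ext i
      fin_cases i <;> simp [G1, mulVec, dotProduct, Fin.sum_univ_succ, h2]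
    rw [e]
    simp only [dotProduct, Fin.sum_univ_succ, Fin.sum_univ_zero, cons_val_zero, cons_val_succ, Fin.succ_zero_eq_one]
    simp
    linear_combination (-(y 0 * y 5 + y 1 * y 6 + y 2 * y 7 + y 3 * y 8 + y 4 ^ 2)) * h3
  · have e : G2.map φ *ᵥ y = ![y 5, y 6, y 7, y 8, y 4, y 0, y 1, y 2, y 3] := by
      ext i
      fin_cases i <;> simp [G2, mulVec, dotProduct, Fin.sum_univ_succ]
    rw [e]
    simp [dotProduct, Fin.sum_univ_succ]
    linear_combination (-(y 0 * y 5 + y 1 * y 6 + y 2 * y 7 + y 3 * y 8 + y 4 ^ 2)) * h3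

theorem DD_mulVec (h3 : (3 : F) = 0) (φ : ZMod 3 →+* F) (y : Fin 9 → F) :
    (DD.map φ) *ᵥ y = ![- y 0, - y 1, - y 2, - y 3, y 4, - y 5, - y 6, - y 7, - y 8] := by
  have h2 : φ 2 = -1 := by
    rw [map_ofNat]
    linear_combination h3
  ext i
  fin_cases i <;> simp [DD, mulVec, dotProduct, Fin.sum_univ_succ, h2]

/-- **the model** -/
theorem prO_model_neg [Finite F] (φ : ZMod 3 →+* F) (h3 : (3 : F) = 0) {Q' : QuadraticForm F (Fin 9 → F)}
    (hQ : Nondeg Q') {κ : F} (hκ : κ = 1 ∨ κ = -1)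
    (hG : ∀ y, Q' y = y 0 * y 5 + y 1 * y 6 + y 2 * y 7 + y 3 * y 8 + κ * y 4 ^ 2)
    {d : (Fin 9 → F) ≃ₗ[F] (Fin 9 → F)}
    (hd : ∀ y, d y = ![- y 0, - y 1, - y 2, - y 3, y 4, - y 5, - y 6, - y 7, - y 8]) : PrO 6 Q' d := by
  rcases hκ with rfl | rfl
  · refine prO_cert φ hQ cert1 (fun y => ?_) (fun y => ?_)
    · rw [hG, ← (form_eq h3 φ y).1]
      ring
    · rw [hd, DD_mulVec h3]
  · refine prO_cert φ hQ cert2 (fun y => ?_) (fun y => ?_)
    · rw [hG, ← (form_eq h3 φ y).2]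
      ring
    · rw [hd, DD_mulVec h3]

theorem nondeg_comp (hQ : Nondeg Q) {V' : Type*} [AddCommGroup V'] [Module F V'] {Q' : QuadraticForm F V'}
    {e : V ≃ₗ[F] V'} (he : ∀ v, Q' (e v) = Q v) : Nondeg Q' := by
  intro x hx
  have h1 : e.symm x = 0 := by
    apply hQ
    intro y
    rw [← polar_iso he, LinearEquiv.apply_symm_apply]
    exact hx _
  rw [← e.apply_symm_apply x, h1, map_zero]

/-- the identity on a frame of length 4 -/
theorem prO_neg_frame [Finite F] [FiniteDimensional F V] (φ : ZMod 3 →+* F) (h3 : (3 : F) = 0) (hQ : Nondeg Q)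
    (hd : finrank F V = 9) {w w' : Fin 4 → V} (hf : Frame Q w w') {e : V} (he : e ∈ perp Q w w')
    (hκ : Q e = 1 ∨ Q e = -1) {g : V ≃ₗ[F] V} (hge : g e = e) (hgn : ∀ v, polar Q e v = 0 → g v = -v) :
    PrO 6 Q g := by
  have he0 : e ≠ 0 := by
    rintro rfl
    rw [QuadraticMap.map_zero] at hκ
    rcases hκ with h | h
    · exact zero_ne_one h
    · exact one_ne_zero (neg_eq_zero.1 h.symm)
  have h1 : finrank F (perp Q w w') = 1 := by
    have := hf.finrank_perp
    omega
  let e₁ : perp Q w w' := ⟨e, he⟩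
  have he₁ : e₁ ≠ 0 := fun h => he0 (congrArg Subtype.val h)
  have hinj : Function.Injective (LinearMap.toSpanSingleton F (perp Q w w') e₁) := by
    rw [← LinearMap.ker_eq_bot]
    exact LinearMap.ker_toSpanSingleton F he₁
  let ε' : F ≃ₗ[F] perp Q w w' := LinearEquiv.ofBijective (LinearMap.toSpanSingleton F (perp Q w w') e₁)
    ⟨hinj, (LinearMap.injective_iff_surjective_of_finrank_eq_finrank (by rw [h1, finrank_self])).1 hinj⟩
  have hε : ∀ t : F, ε' t = t • e₁ := fun t => rfl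
  let E : V ≃ₗ[F] (Fin 9 → F) := hf.toModel.trans (toNine ε'.symm)
  have hE : ∀ y, E.symm y = ∑ i, (![y 0, y 1, y 2, y 3] : Fin 4 → F) i • w i +
      (y 4 • e + ∑ i, (![y 5, y 6, y 7, y 8] : Fin 4 → F) i • w' i) := fun y => hf.toModel_symm_apply _
  let Q' : QuadraticForm F (Fin 9 → F) := Q.comp (E.symm : (Fin 9 → F) →ₗ[F] V)
  have hQ' : ∀ v, Q' (E v) = Q v := by
    intro v
    show Q (E.symm (E v)) = Q v
    rw [LinearEquiv.symm_apply_apply]
  refine PrO.of_autE hQ' (prO_model_neg φ h3 (nondeg_comp hQ hQ') hκ ?_ ?_)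
  · intro y
    have e1 : Q' y = MQ 4 (res Q w w') ((toNine ε'.symm).symm y) := by
      show Q (hf.toModel.symm ((toNine ε'.symm).symm y)) = _
      rw [← hf.MQ_toModel, LinearEquiv.apply_symm_apply]
    rw [e1, toNine_symm, MQ_apply]
    have e2 : res Q w w' (ε'.symm.symm (y 4)) = Q e * y 4 ^ 2 := by
      have : ε'.symm.symm (y 4) = y 4 • e₁ := hε _
      rw [this, QuadraticMap.map_smul, res_apply, smul_eq_mul]
      ring
    rw [e2]
    simp [dotProduct, Fin.sum_univ_four]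
  · intro y
    rw [autE_apply, ← LinearEquiv.eq_symm_apply, hE, hE]
    have e1 : polar Q e (∑ i, (![y 0, y 1, y 2, y 3] : Fin 4 → F) i • w i) = 0 := by
      rw [polar_comm]; exact Frame.polar_perp_l _ he
    have e2 : polar Q e (∑ i, (![y 5, y 6, y 7, y 8] : Fin 4 → F) i • w' i) = 0 := by
      rw [polar_comm]; exact Frame.polar_perp_r _ he
    rw [map_add, map_add, map_smul, hge, hgn _ e1, hgn _ e2]
    simp only [Fin.sum_univ_four, cons_val_zero, cons_val_one, cons_val]
    simp only [neg_smul]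
    abel

/-- **`-r_f`.** -/
theorem prO_neg [Fintype F] [FiniteDimensional F V] (hF : Fintype.card F = 3) (hQ : Nondeg Q)
    (hd : finrank F V = 9) {g : V ≃ₗ[F] V} (hg : g ∈ Om Q) {f : V} (hf : Q f ≠ 0) (hgf : g f = f)
    (hgn : ∀ v, polar Q f v = 0 → g v = -v) : PrO 6 Q g := by
  have hc : CharP F 3 := by
    have := FiniteField.cast_card_eq_zero F
    rw [hF] at this
    exact (CharP.charP_iff_prime_eq_zero Nat.prime_three).2 this
  have h3 : (3 : F) = 0 := by
    have := CharP.cast_eq_zero F 3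
    exact_mod_cast this
  have h2 : (2 : F) ≠ 0 := by
    intro h
    apply one_ne_zero (α := F)
    linear_combination h3 - h
  have hunit : ∀ x : F, x ≠ 0 → x = 1 ∨ x = -1 := by
    intro x hx
    have h4 : x ^ 2 = 1 := by
      have := FiniteField.pow_card_sub_one_eq_one x hx
      rwa [hF] at this
    have h5 : (x - 1) * (x + 1) = 0 := by linear_combination h4
    rcases mul_eq_zero.1 h5 with h | h
    · exact Or.inl (sub_eq_zero.1 h)
    · exact Or.inr (eq_neg_of_add_eq_zero_left h)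
  have hf0 : f ≠ 0 := by
    rintro rfl
    exact hf (QuadraticMap.map_zero _)
  have hg' : ∀ v, g v = ((Q f)⁻¹ * polar Q f v) • f - v := by
    intro v
    have h1 : polar Q f (v - ((2 * Q f)⁻¹ * polar Q f v) • f) = 0 := by
      rw [polar_sub_right, polar_smul_right, polar_self', smul_eq_mul]
      field_simp
      ring
    have h4 := hgn _ h1
    rw [map_sub, map_smul, hgf] at h4
    have h5 : g v = ((2 * Q f)⁻¹ * polar Q f v) • f + -(v - ((2 * Q f)⁻¹ * polar Q f v) • f) := by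
      rw [← h4]
      abel
    have h6 : (Q f)⁻¹ * polar Q f v = (2 * Q f)⁻¹ * polar Q f v + (2 * Q f)⁻¹ * polar Q f v := by
      field_simp
      ring
    rw [h5, h6, add_smul]
    abel
  have hns : ∀ c : F, ∃ v, g v ≠ c • v := by
    intro c
    by_contra hcon
    push Not at hcon
    have h1 := hcon f
    rw [hgf] at h1
    obtain ⟨v, hv0, hv⟩ := exists_perp_ne (Q := Q) ![f] (by omega)
    have h4 := hgn v (hv 0)
    rw [hcon v] at h4
    have h5 : (1 - c) • f = 0 := by rw [sub_smul, one_smul, ← h1, sub_self]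
    have h6 : c = 1 := by
      rcases smul_eq_zero.1 h5 with h | h
      · exact (sub_eq_zero.1 h).symm
      · exact absurd h hf0
    rw [h6, one_smul] at h4
    have h7 : (2 : F) • v = 0 := by
      rw [two_smul]
      nth_rewrite 1 [h4]
      abel
    rcases smul_eq_zero.1 h7 with h | h
    · exact h2 h
    · exact hv0 h
  obtain ⟨m, hm3, hm1, hm2, w, w', hfr, hS, hdet, -⟩ := Cfsg.Agent.H434.Corn.exists_baseCorner hQ (by omega) hg hns
  obtain rfl : m = 4 := by omega
  have hcor : corner Q g w w' = -(1 + replicateCol Unit (fun i => -((Q f)⁻¹ * polar Q f (w' i))) *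
      replicateRow Unit (fun j => polar Q f (w j))) := by
    ext i j
    rw [corner_apply, hg', polar_sub_left, polar_smul_left, hfr.lr, Matrix.neg_apply, Matrix.add_apply, one_apply, mul_apply,
      Fintype.sum_unique, replicateCol_apply, replicateRow_apply, smul_eq_mul]
    by_cases hij : i = j
    · rw [if_pos hij, if_pos hij.symm]; ring
    · rw [if_neg hij, if_neg (Ne.symm hij)]; ring
  rw [hcor, det_neg, Fintype.card_fin, det_one_add_replicateCol_mul_replicateRow] at hdet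
  have hsum : (fun i => polar Q f (w' i)) ⬝ᵥ (fun i => polar Q f (w i)) = 0 := by
    have h1 : (fun j => polar Q f (w j)) ⬝ᵥ (fun i => -((Q f)⁻¹ * polar Q f (w' i))) = 0 := by
      linear_combination hdet
    have h4 : (fun j => polar Q f (w j)) ⬝ᵥ (fun i => -((Q f)⁻¹ * polar Q f (w' i))) =
        -(Q f)⁻¹ * ((fun i => polar Q f (w' i)) ⬝ᵥ (fun i => polar Q f (w i))) := by
      rw [dotProduct, dotProduct, Finset.mul_sum]
      exact Finset.sum_congr rfl fun i _ => by ring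
    rw [h4] at h1
    rcases mul_eq_zero.1 h1 with h | h
    · exact absurd h (neg_ne_zero.2 (inv_ne_zero hf))
    · exact h
  have hQe : Q ((hfr.toModel f).2.1 : V) = Q f := by
    have h1 := hfr.MQ_toModel f
    rw [MQ_apply'] at h1
    have h4 : (hfr.toModel f).1 ⬝ᵥ (hfr.toModel f).2.2 = 0 := by
      rw [← hsum, dotProduct, dotProduct]
      exact Finset.sum_congr rfl fun i _ => by rw [hfr.toModel_fst, hfr.toModel_snd]
    rw [h4, zero_add] at h1
    exact h1
  have hG : Good Q := good_of_finite hQ (by omega)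
  obtain ⟨r, hrE, hr⟩ := hG.trans_norm (v := ((hfr.toModel f).2.1 : V)) (v' := f) (by
    intro h0
    rw [h0, QuadraticMap.map_zero] at hQe
    exact hf hQe.symm) hf0 hQe
  have hrO : r ∈ O Q := E_le_O hrE
  refine PrO.of_autE (e := r.symm) (Q' := Q) (fun v => (O Q).inv_mem hrO v) ?_
  refine prO_neg_frame (ZMod.castHom (dvd_refl 3) F) h3 hQ hd hfr (hfr.toModel f).2.1.2 (by
    rw [hQe]; exact hunit _ hf) ?_ ?_
  · show r.symm (g (r _)) = _
    rw [hr, hgf, LinearEquiv.symm_apply_eq, hr]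
  · intro v hv
    show r.symm (g (r v)) = _
    rw [hgn (r v), map_neg, LinearEquiv.symm_apply_apply]
    rw [← hr, polar_map hrO]
    exact hv

end Cfsg.Agent.H367.PO
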