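import Cfsg.Agent.H367.PO.Seven
import Cfsg.Agent.H367.PO.Neg
import Cfsg.Agent.H141.Red43

/-!
# S2465, `Ω_9(3)`: elements fixing a nonsingular vector (helper367)
-/

set_option autoImplicit false
set_option linter.unusedSectionVars false
set_option linter.unusedVariables false

namespace Cfsg.Agent.H367.PO

open QuadraticMap Matrix Module Cfsg.Agent.LieClassical.OrthCore Cfsg.Agent.LieClassical.OrthTrans
  Cfsg.Agent.LieClassical.OrthFinite Cfsg.Agent.H140.OreO Cfsg.Agent.H126.PwO Cfsg.Agent.H160.QSpin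
  Cfsg.Agent.H141.SpinFacts

universe u v

variable {F : Type u} [Field F] {V : Type v} [AddCommGroup V] [Module F V] {Q : QuadraticForm F V}

/-! ### `q = 3`: no condition on the corner -/

theorem prO_frame_three' [Finite F] [FiniteDimensional F V] (hF : Nat.card F = 3) (hN : 5 ≤ finrank F V)
    {w w' : Fin 3 → V} (hQ : Nondeg Q) (hf : Frame Q w w') {g : V ≃ₗ[F] V} (hg : g ∈ O Q)
    (hS : SchurOne Q g w w') (hdet : (corner Q g w w').det = 1) : PrO 6 Q g := by
  refine prO_frame_three (Or.inl hF) hN hQ hf hg hS hdet ?_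
  by_cases h : ∃ c : F, corner Q g w w' = c • (1 : Matrix (Fin 3) (Fin 3) F)
  · left
    obtain ⟨c, hc⟩ := h
    have _ : Fintype F := Fintype.ofFinite F
    have h1 := FiniteField.pow_card c
    rw [← Nat.card_eq_fintype_card, hF] at h1
    rw [hc, det_smul, det_one, mul_one, Fintype.card_fin, h1] at hdet
    rw [hc, hdet, one_smul]
  · push Not at h
    exact Or.inr h

/-- dimension 8 -/
theorem prO_eight_three [Finite F] [FiniteDimensional F V] (hF : Nat.card F = 3) (hQ : Nondeg Q)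
    (hd : finrank F V = 8) {g : V ≃ₗ[F] V} (hg : g ∈ Om Q) (hns : ∀ c : F, ∃ v, g v ≠ c • v) : PrO 6 Q g := by
  obtain ⟨m, hm3, hm1, hm2, hB⟩ := Cfsg.Agent.H434.Corn.exists_baseCorner hQ (by omega) hg hns
  have hB' : Cfsg.Agent.H141.Red43.BaseCorner' 3 Q g := by
    have : m = 3 ∨ m = 4 := by omega
    rcases this with rfl | rfl
    · exact Cfsg.Agent.H141.Red43.BaseCorner.weak hB
    · exact Cfsg.Agent.H141.Red43.baseCorner_three hd (Om_le hg) hB
  obtain ⟨w, w', hf, hS, hdet, -⟩ := hB'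
  exact prO_frame_three' hF (by omega) hQ hf (Om_le hg) hS hdet

/-! ### the complement of a nonsingular vector -/

section Sum

variable {W : Type*} [AddCommGroup W] [Module F W] {Q₁ : QuadraticForm F V} {Q₂ : QuadraticForm F W}

theorem pr_mem_Om {a : V ≃ₗ[F] V} (ha : a ∈ Om Q₁) : pr a (1 : W ≃ₗ[F] W) ∈ Om (Q₁.prod Q₂) := by
  let ψ : (V ≃ₗ[F] V) →* ((V × W) ≃ₗ[F] (V × W)) :=
    { toFun := fun g => pr g 1
      map_one' := rfl
      map_mul' := fun _ _ => rfl }
  have h1 : (Om Q₁).map ψ ≤ Om (Q₁.prod Q₂) := by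
    rw [Om, Subgroup.map_commutator]
    apply Subgroup.commutator_mono <;>
    · rintro _ ⟨g, hg, rfl⟩
      exact pr_mem_O hg (O Q₂).one_mem
  exact h1 ⟨a, ha, rfl⟩

theorem prO_pr {N : ℕ} {g : V ≃ₗ[F] V} (h : PrO N Q₁ g) : PrO N (Q₁.prod Q₂) (pr g (1 : W ≃ₗ[F] W)) := by
  obtain ⟨a, ha, b, hb, s, t, e, hs, ht, has, hbt⟩ := h
  refine ⟨_, pr_mem_Om ha, _, pr_mem_Om hb, s, t, ?_, hs, ht, ?_, ?_⟩
  · rw [← pr_mul, ← e, mul_one]
  · rw [pr_pow, has, one_pow, pr_one]
  · rw [pr_pow, hbt, one_pow, pr_one]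

theorem mem_Om_of_pr [Finite F] [FiniteDimensional F V] [FiniteDimensional F W] (h2 : (2 : F) ≠ 0) (hG : Good Q₁)
    {g : V ≃ₗ[F] V} (hg : g ∈ O Q₁) (h : pr g (1 : W ≃ₗ[F] W) ∈ Om (Q₁.prod Q₂)) : g ∈ Om Q₁ := by
  have : Finite V := Module.finite_of_finite F
  have : Finite W := Module.finite_of_finite F
  have : Finite (V × W) := inferInstance
  have h3 := hom_eq_one (spin (Q₁.prod Q₂)) h (comm_le h)
  have h4 := spin_pr_left (Q₁ := Q₁) (Q₂ := Q₂) h2 hG.nondeg hg
  have h5 := det_eq_one h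
  rw [det_pr, map_one, mul_one] at h5
  refine mem_Om_of_odd h2 hG hg h5 ?_
  rw [← h4]
  exact h3

end Sum

/-- coordinates with respect to `f^⊥ ⊕ ⟨f⟩` -/
theorem exists_split_line [FiniteDimensional F V] (h2 : (2 : F) ≠ 0) {f : V} (hf : Q f ≠ 0) :
    ∃ e : V ≃ₗ[F] (LinearMap.ker (polarBilin Q f) × F),
      (∀ w t, e.symm (w, t) = (w : V) + t • f) ∧
      ∀ v, ((Q.comp (LinearMap.ker (polarBilin Q f)).subtype).prod (Q.comp (LinearMap.toSpanSingleton F V f))) (e v) =
        Q v := by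
  have hff : polar Q f f ≠ 0 := by rw [polar_self']; exact mul_ne_zero h2 hf
  have hW : ∀ w : LinearMap.ker (polarBilin Q f), polar Q f (w : V) = 0 := fun w => w.2
  let D : (LinearMap.ker (polarBilin Q f) × F) →ₗ[F] V :=
    (LinearMap.ker (polarBilin Q f)).subtype.coprod (LinearMap.toSpanSingleton F V f)
  have hD : ∀ w t, D (w, t) = (w : V) + t • f := fun w t => by
    simp [D]
  have hbij : Function.Bijective D := by
    constructor
    · rw [← LinearMap.ker_eq_bot, LinearMap.ker_eq_bot']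
      rintro ⟨w, t⟩ h
      rw [hD] at h
      have h1 := congrArg (polar Q f) h
      rw [polar_add_right, polar_smul_right, hW, polar_zero_right, zero_add, smul_eq_mul] at h1
      have h3 : t = 0 := (mul_eq_zero.1 h1).resolve_right hff
      rw [h3, zero_smul, add_zero] at h
      exact Prod.ext (Subtype.ext h) h3
    · intro v
      refine ⟨(⟨v - ((polar Q f f)⁻¹ * polar Q f v) • f, ?_⟩, (polar Q f f)⁻¹ * polar Q f v), ?_⟩
      · rw [LinearMap.mem_ker, polarBilin_apply_apply, polar_sub_right, polar_smul_right, smul_eq_mul]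
        field_simp
        ring
      · rw [hD]
        simp
  refine ⟨(LinearEquiv.ofBijective D hbij).symm, hD, fun v => ?_⟩
  obtain ⟨⟨w, t⟩, rfl⟩ := (LinearEquiv.ofBijective D hbij).surjective v
  rw [LinearEquiv.symm_apply_apply, Qpr_apply]
  show Q (w : V) + Q (t • f) = Q (D (w, t))
  rw [hD, Q_add, polar_smul_right, polar_comm, hW, smul_zero, add_zero]

/-- **elements fixing a nonsingular vector** -/
theorem prO_of_fix [Finite F] [FiniteDimensional F V] (hF : Nat.card F = 3) (hQ : Nondeg Q)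
    (hd : finrank F V = 9) {g : V ≃ₗ[F] V} (hg : g ∈ Om Q) {f : V} (hf : Q f ≠ 0) (hgf : g f = f) : PrO 6 Q g := by
  have h2 : (2 : F) ≠ 0 := two_ne_zero_of (by rw [hF]; decide)
  obtain ⟨e, he, hQe⟩ := exists_split_line h2 hf
  set Q₁ := Q.comp (LinearMap.ker (polarBilin Q f)).subtype with hQ₁
  set Q₂ := Q.comp (LinearMap.toSpanSingleton F V f) with hQ₂
  have hgO : g ∈ O Q := Om_le hg
  have hW : ∀ w : LinearMap.ker (polarBilin Q f), polar Q f (w : V) = 0 := fun w => w.2
  have hmem : ∀ w ∈ LinearMap.ker (polarBilin Q f), (g : V →ₗ[F] V) w ∈ LinearMap.ker (polarBilin Q f) := by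
    intro w hw
    rw [LinearMap.mem_ker, polarBilin_apply_apply] at hw ⊢
    have := polar_map hgO f w
    rw [hgf] at this
    rw [LinearEquiv.coe_coe, this, hw]
  let h₀ := (g : V →ₗ[F] V).restrict hmem
  have hinj : Function.Injective h₀ := by
    intro x y hxy
    have : g (x : V) = g (y : V) := congrArg Subtype.val hxy
    exact Subtype.ext (g.injective this)
  let h : LinearMap.ker (polarBilin Q f) ≃ₗ[F] LinearMap.ker (polarBilin Q f) := LinearEquiv.ofInjectiveEndo h₀ hinj
  have hh : ∀ w, ((h w : LinearMap.ker (polarBilin Q f)) : V) = g (w : V) := fun w => rfl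
  have hhO : h ∈ O Q₁ := by
    intro w
    show Q ((h w : LinearMap.ker (polarBilin Q f)) : V) = Q (w : V)
    rw [hh, mem_O.1 hgO]
  have hpr : autE e g = pr h (1 : F ≃ₗ[F] F) := by
    apply LinearEquiv.ext
    rintro ⟨w, t⟩
    rw [autE_apply, pr_apply, ← LinearEquiv.eq_symm_apply, he, map_add, map_smul, hgf]
    exact (he (h w) t).symm
  have hfin : finrank F (LinearMap.ker (polarBilin Q f)) = 8 := by
    have := e.finrank_eq
    rw [finrank_prod, finrank_self, hd] at this
    omega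
  have hnd : Nondeg (Q₁.prod Q₂) := nondeg_comp hQ hQe
  have hQ1 : Nondeg Q₁ := (nondeg_of_prod hnd).1
  have hG : Good Q₁ := good_of_finite hQ1 (by omega)
  have hOm : pr h (1 : F ≃ₗ[F] F) ∈ Om (Q₁.prod Q₂) := by
    rw [← hpr]
    exact (autE_mem_Om hQe).2 hg
  have hh1 : h ∈ Om Q₁ := mem_Om_of_pr h2 hG hhO hOm
  by_cases hsc : ∃ c : F, ∀ v, h v = c • v
  · obtain ⟨c, hc⟩ := hsc
    have _ : Fintype F := Fintype.ofFinite F
    have hc0 : c ≠ 0 := by
      rintro rfl
      obtain ⟨x, hx⟩ : ∃ x : LinearMap.ker (polarBilin Q f), x ≠ 0 := by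
        have : Nontrivial (LinearMap.ker (polarBilin Q f)) := Module.finrank_pos_iff.1 (by rw [hfin]; norm_num)
        exact exists_ne 0
      apply hx
      apply h.injective
      rw [hc, zero_smul, map_zero]
    have hc2 : c = 1 ∨ c = -1 := by
      have h3 := FiniteField.pow_card_sub_one_eq_one c hc0
      rw [← Nat.card_eq_fintype_card, hF] at h3
      have h5 : (c - 1) * (c + 1) = 0 := by linear_combination h3
      rcases mul_eq_zero.1 h5 with h | h
      · exact Or.inl (sub_eq_zero.1 h)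
      · exact Or.inr (eq_neg_of_add_eq_zero_left h)
    rcases hc2 with rfl | rfl
    · have h3 : g = 1 := by
        apply (autE e).injective
        rw [hpr, map_one]
        have : h = 1 := LinearEquiv.ext fun v => by rw [hc, one_smul]; rfl
        rw [this, pr_one]
      rw [h3]
      exact prO_one 6
    · refine prO_neg (by rwa [← Nat.card_eq_fintype_card]) hQ hd hg hf hgf fun v hv => ?_
      have h3 := congrArg Subtype.val (hc ⟨v, hv⟩)
      rw [hh] at h3
      rw [h3]
      simp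
  · push Not at hsc
    exact PrO.of_autE hQe (by rw [hpr]; exact prO_pr (prO_eight_three hF hQ1 hfin hh1 hsc))

end Cfsg.Agent.H367.PO
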