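import Cfsg.Agent.H126.PwO.Num
import Cfsg.Agent.H126.PwO.Fld
import Cfsg.Agent.H295.War.Eng

/-!
# S2465: nondual irreducible polynomials of norm one with roots of order prime to 6 (helper367)

* `exists_s` : `q = 3 ^ k`, `d ≥ 3`, `(q, d) ≠ (3, 4)`;
* `exists_np` : `NP d f`, `f ∣ X ^ s - 1`, `s` prime to 6.
-/

set_option autoImplicit false

namespace Cfsg.Agent.H367.PO

open Polynomial Cfsg.Agent.H126.PwO

theorem not_dvd_add_even {q r s e : ℕ} (hq : 2 ≤ q) (he : 1 ≤ e) (hr : r ∣ q ^ (2 * e) - 1)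
    (hmin : ∀ k, 0 < k → k < 2 * e → ¬ r ∣ q ^ k - 1) (hr2 : ¬ r ∣ 2) (hs : s ∣ q ^ e - 1) (hs2 : ¬ s ∣ 2) :
    ∀ i < 2 * e, ¬ r * s ∣ q ^ i + 1 := by
  intro i hi h
  have hr' : r ∣ q ^ i + 1 := (dvd_mul_right r s).trans h
  have hs' : s ∣ q ^ i + 1 := (dvd_mul_left s r).trans h
  rcases Nat.eq_zero_or_pos i with rfl | hi0
  · exact hr2 (by simpa using hr')
  have h3 : r ∣ q ^ (2 * i) - 1 := by
    have h4 : q ^ (2 * i) - 1 = (q ^ i + 1) * (q ^ i - 1) := by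
      have h5 := Nat.sq_sub_sq (q ^ i) 1
      rw [one_pow] at h5
      rw [mul_comm 2 i, pow_mul, h5]
    rw [h4]
    exact hr'.mul_right _
  rcases lt_trichotomy (2 * i) (2 * e) with h5 | h5 | h5
  · exact hmin _ (by omega) h5 h3
  · obtain rfl : i = e := by omega
    apply hs2
    have h6 := Nat.dvd_sub hs' hs
    have h7 : 1 ≤ q ^ i := Nat.one_le_pow _ _ (by omega)
    have h8 : q ^ i + 1 - (q ^ i - 1) = 2 := by omega
    rwa [h8] at h6
  · have h6 : q ^ (2 * i) - 1 = q ^ (2 * i - 2 * e) * (q ^ (2 * e) - 1) + (q ^ (2 * i - 2 * e) - 1) := by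
      have h7 : q ^ (2 * i) = q ^ (2 * i - 2 * e) * q ^ (2 * e) := by rw [← pow_add]; congr 1; omega
      have h8 : 1 ≤ q ^ (2 * i - 2 * e) := Nat.one_le_pow _ _ (by omega)
      have h9 : 1 ≤ q ^ (2 * e) := Nat.one_le_pow _ _ (by omega)
      rw [h7, Nat.mul_sub, mul_one]
      have h10 : q ^ (2 * i - 2 * e) ≤ q ^ (2 * i - 2 * e) * q ^ (2 * e) := Nat.le_mul_of_pos_right _ h9
      omega
    rw [h6] at h3
    exact hmin _ (by omega) (by omega) ((Nat.dvd_add_right (hr.mul_left _)).1 h3)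

/-- a prime `≥ 5` dividing `3 ^ k + 1`, `k ≥ 2` -/
theorem exists_prime_three {k : ℕ} (hk : 2 ≤ k) : ∃ s : ℕ, s.Prime ∧ 5 ≤ s ∧ s ∣ 3 ^ k + 1 := by
  by_contra hcon
  push Not at hcon
  have h3 : ¬ 3 ∣ 3 ^ k + 1 := by
    intro h
    have h1 : 3 ∣ 3 ^ k := dvd_pow_self 3 (by omega)
    have h2 := (Nat.dvd_add_right h1).1 h
    omega
  have h8 : ¬ 8 ∣ 3 ^ k + 1 := by
    intro h
    have h1 : (3 ^ k + 1) % 8 = 0 := Nat.mod_eq_zero_of_dvd h
    rcases Nat.even_or_odd' k with ⟨c, rfl | rfl⟩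
    · rw [pow_mul, Nat.add_mod, Nat.pow_mod] at h1
      norm_num at h1
    · rw [pow_succ, pow_mul, Nat.add_mod, Nat.mul_mod, Nat.pow_mod] at h1
      norm_num at h1
  have h9 : 9 ≤ 3 ^ k := by
    calc 9 = 3 ^ 2 := rfl
      _ ≤ 3 ^ k := Nat.pow_le_pow_right (by norm_num) hk
  have key : ∀ p, p.Prime → p ∣ 3 ^ k + 1 → p = 2 := by
    intro p hp hd
    have h1 : p < 5 := by
      by_contra h
      exact hcon p hp (by omega) hd
    have h2 := hp.two_le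
    interval_cases p
    · rfl
    · exact absurd hd h3
    · exact absurd hp (by norm_num)
  obtain ⟨j, hj⟩ : ∃ j, 3 ^ k + 1 = 2 ^ j := by
    refine ⟨_, Nat.eq_prime_pow_of_unique_prime_dvd (by omega) fun {p} hp hd => key p hp hd⟩
  have hj3 : j < 3 := by
    by_contra h
    apply h8
    rw [hj]
    exact pow_dvd_pow 2 (show 3 ≤ j by omega)
  interval_cases j <;> omega

theorem dvd_quot {q a b : ℕ} (hq : 2 ≤ q) (h : a ∣ b) : (q ^ a - 1) / (q - 1) ∣ (q ^ b - 1) / (q - 1) := by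
  obtain ⟨M, hM, hM'⟩ := div_eq (d := a) hq
  obtain ⟨N, hN, hN'⟩ := div_eq (d := b) hq
  rw [hM', hN']
  have h1 : q ^ a - 1 ∣ q ^ b - 1 := by
    obtain ⟨c, rfl⟩ := h
    rw [pow_mul]
    have := Nat.sub_dvd_pow_sub_pow (q ^ a) 1 c
    rwa [one_pow] at this
  rw [hM, hN] at h1
  exact Nat.dvd_of_mul_dvd_mul_right (by omega) h1

theorem exists_s {q k d : ℕ} (hk : 1 ≤ k) (hq : q = 3 ^ k) (hd : 3 ≤ d) (h34 : ¬ (k = 1 ∧ d = 4)) :
    ∃ s : ℕ, s.Coprime 6 ∧ s ∣ q ^ d - 1 ∧ (∀ j, 0 < j → j < d → ¬ s ∣ q ^ j - 1) ∧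
      (∀ i < d, ¬ s ∣ q ^ i + 1) ∧ s ∣ (q ^ d - 1) / (q - 1) := by
  have hq2 : 2 ≤ q := by
    rw [hq]
    calc 2 ≤ 3 ^ 1 := by norm_num
      _ ≤ 3 ^ k := Nat.pow_le_pow_right (by norm_num) hk
  have hq3 : q ≠ 2 := by
    rintro rfl
    have h1 : 3 ∣ 2 := by rw [hq]; exact dvd_pow_self 3 (by omega)
    omega
  obtain ⟨r, hr, hr5, -, hrd, hrm⟩ := exists_prime_odd hq2 hd (fun h => hq3 h.1)
  have hr2 : ¬ r ∣ 2 := fun h => by have := Nat.le_of_dvd (by norm_num) h; omega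
  rcases Nat.even_or_odd' d with ⟨e, rfl | hde⟩
  swap
  · exact ⟨r, coprime_six hr hr5, hrd, hrm, not_dvd_add (by omega) ⟨e, hde⟩ hrd hrm hr2,
      dvd_div hq2 hr (by omega) hrd hrm⟩
  obtain ⟨s, hs, hs5, hse, hst⟩ : ∃ s : ℕ, s.Prime ∧ 5 ≤ s ∧ s ∣ q ^ e - 1 ∧ s ∣ (q ^ e - 1) / (q - 1) := by
    by_cases he : 3 ≤ e
    · obtain ⟨s, hs, hs5, -, hsd, hsm⟩ := exists_prime_odd hq2 he (fun h => hq3 h.1)
      exact ⟨s, hs, hs5, hsd, dvd_div hq2 hs (by omega) hsd hsm⟩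
    · obtain rfl : e = 2 := by omega
      obtain ⟨s, hs, hs5, hsd⟩ := exists_prime_three (k := k) (by omega)
      rw [← hq] at hsd
      have h1 : q ^ 2 - 1 = (q + 1) * (q - 1) := by
        have := Nat.sq_sub_sq q 1
        rwa [one_pow] at this
      rw [h1, Nat.mul_div_cancel _ (by omega)]
      exact ⟨s, hs, hs5, hsd.mul_right _, hsd⟩
  have hrs : r ≠ s := by
    rintro rfl
    exact hrm e (by omega) (by omega) hse
  have hcop : r.Coprime s := (Nat.coprime_primes hr hs).2 hrs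
  have h1 : q ^ e - 1 ∣ q ^ (2 * e) - 1 := by
    rw [mul_comm 2 e, pow_mul]
    have := Nat.sub_dvd_pow_sub_pow (q ^ e) 1 2
    rwa [one_pow] at this
  refine ⟨r * s, Nat.Coprime.mul_left (coprime_six hr hr5) (coprime_six hs hs5),
    hcop.mul_dvd_of_dvd_of_dvd hrd (hse.trans h1), fun j h2 h3 h4 => hrm j h2 h3 ((dvd_mul_right r s).trans h4),
    not_dvd_add_even hq2 (by omega) hrd hrm hr2 hse (fun h => by have := Nat.le_of_dvd (by norm_num) h; omega),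
    hcop.mul_dvd_of_dvd_of_dvd (dvd_div hq2 hr (by omega) hrd hrm)
      (hst.trans (dvd_quot hq2 (dvd_mul_left e 2)))⟩

end Cfsg.Agent.H367.PO
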