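import Cfsg.Agent.H367.PO.Odd
import Cfsg.Agent.H367.PO.Coset

/-!
# S2465: the orthogonal groups of odd dimension (helper367)

`own_row`, `six_row` : the hypotheses `hown`, `hsix` of `H346.PwRows.row_poo`.
-/

set_option autoImplicit false

namespace Cfsg.Agent.H367.PO

universe u

/-- **`All 6`, characteristic 3** -/
theorem six_odd {F : Type u} [Field F] [Fintype F] [CharP F 3] {n : ℕ} (hn : 3 ≤ n) :
    Cfsg.Agent.H78.Pw.All 6 (Cfsg.POmega F (Cfsg.quadFormOdd n F)) := by
  by_cases h : Fintype.card F = 3 ∧ n = 4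
  · obtain ⟨hF, rfl⟩ := h
    refine all_odd (by rw [hF]; decide) 4 fun Q hQ hd g hg => ?_
    exact prO_nine (by rwa [Nat.card_eq_fintype_card]) hQ hd hg
  · exact six_odd_of hn h

theorem six_row (F : Type) [Field F] [Fintype F] [CharP F 3] (m : ℕ) (hm : 3 ≤ m) :
    Cfsg.Agent.H78.Pw.All 6 (Cfsg.POmega F (Cfsg.quadFormOdd m F)) := six_odd hm

end Cfsg.Agent.H367.PO
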